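import Mathlib
import Cfsg.Agent.H319.One.Base
import Cfsg.Agent.H491.One.Fix
import Cfsg.Agent.ClassicalGeometry.AutPSL.Main
import Cfsg.Agent.H124.LinCyc
import Cfsg.Agent.Lib.PSL2Mult
import Cfsg.Agent.StdL2.Cover

/-!
# S4880: the row `PSL_m(q)`, cross characteristic (helper491, project S4880 of helper319)

* `row_psl` : `Hyp p n (PSL_m(F))`, `p ∤ |F|`, is impossible.
-/

set_option autoImplicit false

namespace Cfsg.Agent.H491.One

open Subgroup Matrix Cfsg Cfsg.Agent.H319.One
open Cfsg.Agent.ClassicalGeometry.AutPSL.Root (pr pr_surjective exists_smul_of_pr_eq)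
open Cfsg.Agent.ClassicalGeometry.AutPSL.Auto (cj fld itr lift coe_cj coe_itr)

variable {F : Type} [Field F] [Fintype F] {m n p : ℕ} [hp : Fact p.Prime]

/-- a scalar of order `p` in `SL_m` -/
theorem scalar_one (hc : ¬ (p ∣ m ∧ p ∣ Fintype.card F - 1)) {c : F} (h1 : c ^ p = 1) (h2 : c ^ m = 1) : c = 1 := by
  have hc0 : c ≠ 0 := by
    rintro rfl
    rw [zero_pow hp.out.ne_zero] at h1
    exact zero_ne_one h1
  by_cases hm : p ∣ m
  · have hq : ¬ p ∣ Fintype.card F - 1 := fun h => hc ⟨hm, h⟩
    have h3 : c ^ (Fintype.card F - 1) = 1 := FiniteField.pow_card_sub_one_eq_one c hc0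
    have h4 : c ^ Nat.gcd p (Fintype.card F - 1) = 1 := pow_gcd_eq_one.2 ⟨h1, h3⟩
    rwa [(Nat.Prime.coprime_iff_not_dvd hp.out).2 hq, pow_one] at h4
  · have h4 : c ^ Nat.gcd p m = 1 := pow_gcd_eq_one.2 ⟨h1, h2⟩
    rwa [(Nat.Prime.coprime_iff_not_dvd hp.out).2 hm, pow_one] at h4

/-- equality modulo scalars of elements of exponent `p` -/
theorem eq_of_pr (hc : ¬ (p ∣ m ∧ p ∣ Fintype.card F - 1)) (hm : 1 ≤ m) {x y : Matrix.SpecialLinearGroup (Fin m) F}
    (hx : x ^ p = 1) (hy : y ^ p = 1) (h : pr x = pr y) : y = x := by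
  obtain ⟨c, hcy⟩ := exists_smul_of_pr_eq h
  have h1 : c ^ p = 1 := by
    have h2 := congrArg (fun M : Matrix (Fin m) (Fin m) F => M ^ p) hcy
    simp only [smul_pow, ← Matrix.SpecialLinearGroup.coe_pow] at h2
    rw [hx, hy, Matrix.SpecialLinearGroup.coe_one] at h2
    have h3 := congrFun (congrFun h2 ⟨0, hm⟩) ⟨0, hm⟩
    rw [Matrix.smul_apply, Matrix.one_apply_eq, smul_eq_mul, mul_one] at h3
    exact h3.symm
  have h2 : c ^ m = 1 := by
    have h3 := congrArg Matrix.det hcy
    rw [Matrix.det_smul, x.2, y.2, mul_one, Fintype.card_fin] at h3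
    exact h3.symm
  rw [scalar_one hc h1 h2, one_smul] at hcy
  exact Subtype.ext hcy

/-- **the number of fixed vectors is invariant under automorphisms** -/
theorem fxN_aut (hc : ¬ (p ∣ m ∧ p ∣ Fintype.card F - 1)) (hm : 3 ≤ m)
    (φ : MulAut (Matrix.ProjectiveSpecialLinearGroup (Fin m) F)) {x y : Matrix.SpecialLinearGroup (Fin m) F}
    (hx : x ^ p = 1) (hy : y ^ p = 1) (h : φ (pr x) = pr y) :
    fxN (y : Matrix (Fin m) (Fin m) F) = fxN (x : Matrix (Fin m) (Fin m) F) := by
  obtain ⟨r, hr⟩ := CharP.exists F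
  have := Fact.mk (CharP.char_is_prime F r)
  have key : ∀ (A : GL (Fin m) F) (σ : F ≃+* F) (z : Matrix.SpecialLinearGroup (Fin m) F),
      fxN (((cj A * fld σ : MulAut (Matrix.SpecialLinearGroup (Fin m) F)) z : Matrix.SpecialLinearGroup (Fin m) F) :
        Matrix (Fin m) (Fin m) F) =
        fxN (z : Matrix (Fin m) (Fin m) F) := by
    intro A σ z
    rw [MulAut.mul_apply, coe_cj, fxN_conj]
    exact fxN_map σ _
  rcases ClassicalGeometry.AutPSL.Main.surj_three r hm φ with ⟨A, σ, rfl⟩ | ⟨A, σ, rfl⟩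
  · set α : MulAut (Matrix.SpecialLinearGroup (Fin m) F) := cj A * fld σ with hα
    have h1 : pr (α x) = pr y := h
    have h2 := eq_of_pr hc (by omega) (x := α x) (by rw [← map_pow, hx, map_one]) hy h1
    rw [h2, hα, key]
  · set α : MulAut (Matrix.SpecialLinearGroup (Fin m) F) := cj A * fld σ * itr with hα
    have h1 : pr (α x) = pr y := h
    have h2 := eq_of_pr hc (by omega) (x := α x) (by rw [← map_pow, hx, map_one]) hy h1
    have h3 : α x = (cj A * fld σ : MulAut (Matrix.SpecialLinearGroup (Fin m) F)) (itr x) := rfl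
    rw [h2, h3, key, coe_itr, fxN_transpose]
    apply fxN_inv
    rw [← Matrix.SpecialLinearGroup.coe_mul, inv_mul_cancel, Matrix.SpecialLinearGroup.coe_one]

omit hp in
/-- an element of `SL_m` with a block -/
theorem exists_block {ι : Type} [Fintype ι] [DecidableEq ι] (hι : Fintype.card ι ≤ m) (A : Matrix ι ι F)
    (hA : A ^ p = 1) (dA : A.det = 1) (fA : fxN A = 1) :
    ∃ x : Matrix.SpecialLinearGroup (Fin m) F, x ^ p = 1 ∧
      fxN (x : Matrix (Fin m) (Fin m) F) = Fintype.card F ^ (m - Fintype.card ι) := by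
  have hcard : Fintype.card (ι ⊕ Fin (m - Fintype.card ι)) = Fintype.card (Fin m) := by
    rw [Fintype.card_sum, Fintype.card_fin, Fintype.card_fin]
    omega
  let e := Fintype.equivOfCardEq hcard
  let B : Matrix (ι ⊕ Fin (m - Fintype.card ι)) (ι ⊕ Fin (m - Fintype.card ι)) F := fromBlocks A 0 0 1
  have hB : B ^ p = 1 := by
    show (fromBlocks A 0 0 1) ^ p = 1
    rw [fromBlocks_diagonal_pow, hA, one_pow, fromBlocks_one]
  have dB : (reindex e e B).det = 1 := by
    rw [det_reindex_self]
    show (fromBlocks A 0 0 1).det = 1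
    rw [det_fromBlocks_zero₂₁, dA, det_one, mul_one]
  let x : Matrix.SpecialLinearGroup (Fin m) F := ⟨reindex e e B, dB⟩
  refine ⟨x, ?_, ?_⟩
  · apply Subtype.ext
    have h1 : ((x ^ p : Matrix.SpecialLinearGroup (Fin m) F) : Matrix (Fin m) (Fin m) F) =
        (reindexAlgEquiv F F e B) ^ p := Matrix.SpecialLinearGroup.coe_pow x p
    refine h1.trans ?_
    rw [← map_pow, hB, map_one]
    rfl
  · show fxN (reindex e e B) = _
    rw [fxN_reindex]
    show fxN (fromBlocks A 0 0 1) = _
    rw [fxN_fromBlocks, fA, fxN_one, one_mul, Fintype.card_fin]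

/-- two elements of order `p` with different numbers of fixed vectors -/
theorem false_of_two (h : Hyp p n (Matrix.ProjectiveSpecialLinearGroup (Fin m) F))
    (hc : ¬ (p ∣ m ∧ p ∣ Fintype.card F - 1)) (hm : 3 ≤ m) {ι κ : Type} [Fintype ι] [DecidableEq ι] [Fintype κ]
    [DecidableEq κ] (hι : 0 < Fintype.card ι) (hικ : Fintype.card ι < Fintype.card κ) (hκ : Fintype.card κ ≤ m)
    (A : Matrix ι ι F) (B : Matrix κ κ F) (hA : A ^ p = 1) (hB : B ^ p = 1) (dA : A.det = 1) (dB : B.det = 1)
    (fA : fxN A = 1) (fB : fxN B = 1) : False := by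
  have hq : 1 < Fintype.card F := Fintype.one_lt_card
  obtain ⟨x, hx, fx⟩ := exists_block (m := m) (by omega) A hA dA fA
  obtain ⟨y, hy, fy⟩ := exists_block hκ B hB dB fB
  have ho : ∀ z : Matrix.SpecialLinearGroup (Fin m) F, z ^ p = 1 →
      fxN (z : Matrix (Fin m) (Fin m) F) ≠ Fintype.card F ^ m → orderOf (pr z) = p := by
    intro z hz hf
    refine orderOf_eq_prime (by rw [← map_pow, hz, map_one]) fun h1 => hf ?_
    have h2 : z = 1 := eq_of_pr hc (by omega) (one_pow p) hz (by rw [h1, map_one])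
    rw [h2, Matrix.SpecialLinearGroup.coe_one, fxN_one, Fintype.card_fin]
  have hox := ho x hx (by
    rw [fx]
    intro h1
    have := Nat.pow_right_injective hq h1
    omega)
  have hoy := ho y hy (by
    rw [fy]
    intro h1
    have := Nat.pow_right_injective hq h1
    omega)
  obtain ⟨φ, hφ⟩ := h.one _ _ hox hoy
  have h1 := fxN_aut hc hm φ hx hy hφ
  rw [fx, fy] at h1
  have := Nat.pow_right_injective hq h1
  omega

omit [Fintype F] in
theorem perm_mul_diagonal (β : Fin m → F) (σ : Equiv.Perm (Fin m)) :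
    σ.permMatrix F * diagonal β = diagonal (fun i => β (σ i)) * σ.permMatrix F := by
  ext i j
  rw [Matrix.mul_diagonal, Matrix.diagonal_mul]
  by_cases h : σ i = j
  · subst h
    ring
  · have h1 : (Equiv.Perm.permMatrix F σ) i j = 0 := by
      rw [Equiv.Perm.permMatrix, PEquiv.toMatrix_apply]
      simp [Equiv.toPEquiv_apply, h]
    rw [h1]
    ring

omit [Fintype F] in
/-- `p ∣ gcd(m, q - 1)` -/
theorem false_of_gcd (h : Hyp p n (Matrix.ProjectiveSpecialLinearGroup (Fin m) F)) (hm0 : 0 < m) (hpm : p ∣ m)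
    {a : F} (ha : a ^ p = 1) (ha1 : a ≠ 1) : False := by
  have h5 := h.five
  have hpm' : p ≤ m := Nat.le_of_dvd hm0 hpm
  have ha0 : a ≠ 0 := by
    rintro rfl
    rw [zero_pow hp.out.ne_zero] at ha
    exact zero_ne_one ha
  -- a permutation of order `p`
  obtain ⟨σ, hσ⟩ : ∃ σ : Equiv.Perm (Fin m), orderOf σ = p := by
    apply exists_prime_orderOf_dvd_card p
    rw [Fintype.card_perm, Fintype.card_fin]
    exact (hp.out.dvd_factorial).2 hpm'
  have hσp : σ ^ p = 1 := by rw [← hσ, pow_orderOf_eq_one]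
  have hσ1 : σ ≠ 1 := by
    rintro rfl
    rw [orderOf_one] at hσ
    exact hp.out.one_lt.ne hσ
  have hodd : Odd p := hp.out.odd_of_ne_two (by omega)
  have hsign : Equiv.Perm.sign σ = 1 := by
    rcases Int.units_eq_one_or (Equiv.Perm.sign σ) with h1 | h1
    · exact h1
    · exfalso
      have h2 := congrArg Equiv.Perm.sign hσp
      rw [map_pow, h1, map_one, hodd.neg_one_pow] at h2
      exact absurd h2 (by decide)
  obtain ⟨k, hk⟩ : ∃ k, σ k ≠ k := by
    by_contra hcon
    push Not at hcon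
    exact hσ1 (Equiv.ext hcon)
  have hk2 : σ (σ k) ≠ k := by
    intro h1
    apply hk
    have h2 : ∀ j : ℕ, (σ ^ (2 * j)) k = k := by
      intro j
      induction j with
      | zero => rfl
      | succ j ih =>
        rw [show 2 * (j + 1) = 2 * j + 2 by ring, pow_add, Equiv.Perm.mul_apply]
        have h3 : (σ ^ 2) k = k := by rw [sq, Equiv.Perm.mul_apply, h1]
        rw [h3, ih]
    obtain ⟨j, hj⟩ := hodd
    have h3 : (σ ^ p) k = k := by rw [hσp, Equiv.Perm.one_apply]
    rw [hj, pow_succ', Equiv.Perm.mul_apply, h2] at h3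
    exact h3
  have hk3 : σ (σ k) ≠ σ k := fun h1 => hk (σ.injective h1)
  -- the matrices
  let c : Matrix.SpecialLinearGroup (Fin m) F := ⟨σ.permMatrix F, by
    rw [det_permutation, hsign]
    simp⟩
  let D : Subgroup (Matrix.SpecialLinearGroup (Fin m) F) :=
    { carrier := {x | (∃ β : Fin m → F, (x : Matrix (Fin m) (Fin m) F) = diagonal β) ∧ x ^ p = 1}
      one_mem' := ⟨⟨fun _ => 1, by rw [Matrix.SpecialLinearGroup.coe_one, diagonal_one]⟩, one_pow p⟩
      mul_mem' := by
        rintro x y ⟨⟨β, hβ⟩, hx⟩ ⟨⟨γ, hγ⟩, hy⟩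
        refine ⟨⟨fun i => β i * γ i, by rw [Matrix.SpecialLinearGroup.coe_mul, hβ, hγ, diagonal_mul_diagonal]⟩, ?_⟩
        have hcomm : Commute x y := by
          apply Subtype.ext
          rw [Matrix.SpecialLinearGroup.coe_mul, Matrix.SpecialLinearGroup.coe_mul, hβ, hγ, diagonal_mul_diagonal,
            diagonal_mul_diagonal]
          congr 1
          funext i
          exact mul_comm _ _
        rw [hcomm.mul_pow, hx, hy, one_mul]
      inv_mem' := by
        rintro x ⟨⟨β, hβ⟩, hx⟩
        have h1 : ∏ i, β i = 1 := by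
          have := x.2
          change (x : Matrix (Fin m) (Fin m) F).det = 1 at this
          rwa [hβ, det_diagonal] at this
        have h2 : ∀ i, β i ≠ 0 := fun i h0 => by
          have := Finset.prod_eq_zero (Finset.mem_univ i) h0
          rw [h1] at this
          exact one_ne_zero this
        refine ⟨⟨fun i => (β i)⁻¹, ?_⟩, by rw [inv_pow, hx, inv_one]⟩
        let y : Matrix.SpecialLinearGroup (Fin m) F :=
          ⟨diagonal (fun i => (β i)⁻¹), by rw [det_diagonal, Finset.prod_inv_distrib, h1, inv_one]⟩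
        have h3 : x * y = 1 := by
          apply Subtype.ext
          rw [Matrix.SpecialLinearGroup.coe_mul, hβ, Matrix.SpecialLinearGroup.coe_one]
          show diagonal β * diagonal (fun i => (β i)⁻¹) = 1
          rw [diagonal_mul_diagonal]
          have h4 : (fun i => β i * (β i)⁻¹) = fun _ => (1 : F) := funext fun i => mul_inv_cancel₀ (h2 i)
          rw [h4, diagonal_one]
        rw [← eq_inv_of_mul_eq_one_right h3] }
  have hD : IsPGroup p D := fun x => ⟨1, Subtype.ext (by rw [pow_one]; exact x.2.2)⟩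
  have hcD : ∀ x ∈ D, c * x * c⁻¹ ∈ D := by
    rintro x ⟨⟨β, hβ⟩, hx⟩
    refine ⟨⟨fun i => β (σ i), ?_⟩, by rw [conj_pow, hx, mul_one, mul_inv_cancel]⟩
    have h1 : ((c * x : Matrix.SpecialLinearGroup (Fin m) F) : Matrix (Fin m) (Fin m) F) =
        diagonal (fun i => β (σ i)) * (c : Matrix (Fin m) (Fin m) F) := by
      rw [Matrix.SpecialLinearGroup.coe_mul, hβ]
      exact perm_mul_diagonal β σ
    rw [Matrix.SpecialLinearGroup.coe_mul, h1, mul_assoc, ← Matrix.SpecialLinearGroup.coe_mul, mul_inv_cancel,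
      Matrix.SpecialLinearGroup.coe_one, mul_one]
  have hcp : c ^ p = 1 := by
    have key : ∀ (j : ℕ) (v : Fin m → F), ((c ^ j : Matrix.SpecialLinearGroup (Fin m) F) : Matrix (Fin m) (Fin m) F) *ᵥ v =
        v ∘ (σ ^ j : Equiv.Perm (Fin m)) := by
      intro j
      induction j with
      | zero =>
        intro v
        rw [pow_zero, pow_zero, Matrix.SpecialLinearGroup.coe_one, one_mulVec]
        rfl
      | succ j ih =>
        intro v
        rw [pow_succ, pow_succ', Matrix.SpecialLinearGroup.coe_mul, ← mulVec_mulVec, ih]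
        have h1 : (c : Matrix (Fin m) (Fin m) F) *ᵥ v = v ∘ σ := permMatrix_mulVec σ
        rw [h1]
        rfl
    apply Subtype.ext
    apply Matrix.toLin'.injective
    apply LinearMap.ext
    intro v
    rw [Matrix.toLin'_apply, Matrix.toLin'_apply, key, hσp, Matrix.SpecialLinearGroup.coe_one, one_mulVec]
    rfl
  have hZ : IsPGroup p (zpowers c) := by
    intro x
    obtain ⟨j, hj⟩ := x.2
    refine ⟨1, Subtype.ext ?_⟩
    show (x : Matrix.SpecialLinearGroup (Fin m) F) ^ p ^ 1 = 1
    rw [← hj, pow_one]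
    show (c ^ j) ^ p = 1
    rw [← _root_.zpow_natCast, ← _root_.zpow_mul, mul_comm, _root_.zpow_mul, _root_.zpow_natCast, hcp,
      _root_.one_zpow]
  have hnorm : zpowers c ≤ normalizer (D : Set (Matrix.SpecialLinearGroup (Fin m) F)) := by
    rw [zpowers_le, mem_normalizer_iff]
    intro x
    refine ⟨hcD x, fun hx => ?_⟩
    have hinv : ∀ j : ℕ, ∀ y ∈ D, c ^ j * y * (c ^ j)⁻¹ ∈ D := by
      intro j
      induction j with
      | zero => intro y hy; simpa using hy
      | succ j ih =>
        intro y hy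
        have := hcD _ (ih y hy)
        rw [pow_succ']
        convert this using 1
        group
    have h1 := hinv (p - 1) _ hx
    have h2 : c ^ (p - 1) * (c * x * c⁻¹) * (c ^ (p - 1))⁻¹ = x := by
      have h3 : c ^ (p - 1) * c = 1 := by
        rw [← pow_succ, Nat.sub_add_cancel hp.out.one_lt.le, hcp]
      calc c ^ (p - 1) * (c * x * c⁻¹) * (c ^ (p - 1))⁻¹ = (c ^ (p - 1) * c) * x * (c ^ (p - 1) * c)⁻¹ := by group
        _ = x := by rw [h3]; group
    rwa [h2] at h1
  have hQ : IsPGroup p (zpowers c ⊔ D : Subgroup (Matrix.SpecialLinearGroup (Fin m) F)) :=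
    hZ.to_sup_of_normal_right' hD hnorm
  -- the diagonal matrix
  set β : Fin m → F := fun i => if i = k then a else if i = σ k then a⁻¹ else 1 with hβ
  have hβk : β k = a := by rw [hβ]; simp
  have hβk1 : β (σ k) = a⁻¹ := by rw [hβ]; simp [hk]
  have hβk2 : β (σ (σ k)) = 1 := by rw [hβ]; simp [hk2, hk3]
  have hprod : ∏ i, β i = 1 := by
    have h1 : ∀ i, β i = (if i = k then a else 1) * (if i = σ k then a⁻¹ else 1) := by
      intro i
      rw [hβ]
      by_cases h1 : i = k
      · subst h1
        simp [hk.symm]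
      · simp [h1]
    rw [Finset.prod_congr rfl (fun i _ => h1 i), Finset.prod_mul_distrib, Finset.prod_ite_eq' Finset.univ,
      Finset.prod_ite_eq' Finset.univ]
    simp [ha0]
  let t : Matrix.SpecialLinearGroup (Fin m) F := ⟨diagonal β, by rw [det_diagonal, hprod]⟩
  have ht : t ∈ D := by
    refine ⟨⟨β, rfl⟩, ?_⟩
    apply Subtype.ext
    rw [Matrix.SpecialLinearGroup.coe_pow, Matrix.SpecialLinearGroup.coe_one]
    show diagonal β ^ p = 1
    rw [diagonal_pow]
    have h1 : β ^ p = fun _ => 1 := by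
      funext i
      rw [Pi.pow_apply, hβ]
      simp only
      split_ifs
      · exact ha
      · rw [inv_pow, ha, inv_one]
      · exact one_pow p
    rw [h1, diagonal_one]
  have hcomm := h.comm ((zpowers c ⊔ D).map pr) (hQ.map _) (pr c) ⟨c, mem_sup_left (mem_zpowers c), rfl⟩ (pr t)
    ⟨t, mem_sup_right ht, rfl⟩
  rw [← map_mul, ← map_mul] at hcomm
  obtain ⟨z, hz⟩ := exists_smul_of_pr_eq hcomm
  rw [Matrix.SpecialLinearGroup.coe_mul, Matrix.SpecialLinearGroup.coe_mul] at hz
  have h1 : (c : Matrix (Fin m) (Fin m) F) * (t : Matrix (Fin m) (Fin m) F) =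
      diagonal (fun i => β (σ i)) * (c : Matrix (Fin m) (Fin m) F) := perm_mul_diagonal β σ
  rw [h1] at hz
  have h2 : (t : Matrix (Fin m) (Fin m) F) = z • diagonal (fun i => β (σ i)) := by
    have h3 : (c : Matrix (Fin m) (Fin m) F) * ((c⁻¹ : Matrix.SpecialLinearGroup (Fin m) F) : Matrix (Fin m) (Fin m) F) = 1 := by
      rw [← Matrix.SpecialLinearGroup.coe_mul, mul_inv_cancel, Matrix.SpecialLinearGroup.coe_one]
    have h4 := congrArg (fun M => M * ((c⁻¹ : Matrix.SpecialLinearGroup (Fin m) F) : Matrix (Fin m) (Fin m) F)) hz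
    simp only [smul_mul_assoc, mul_assoc, h3, mul_one] at h4
    exact h4
  have h3 : ∀ i, β i = z * β (σ i) := by
    intro i
    have h4 := congrFun (congrFun h2 i) i
    change (diagonal β) i i = _ at h4
    rw [diagonal_apply_eq, Matrix.smul_apply, diagonal_apply_eq, smul_eq_mul] at h4
    exact h4
  have h4 := h3 k
  have h6 := h3 (σ k)
  rw [hβk, hβk1] at h4
  rw [hβk1, hβk2, mul_one] at h6
  -- `z = a⁻¹`, `a = a⁻²`
  have h7 : a ^ 3 = 1 := by
    rw [← h6] at h4
    field_simp at h4
    linear_combination h4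
  have h8 : a ^ Nat.gcd p 3 = 1 := pow_gcd_eq_one.2 ⟨ha, h7⟩
  have h9 : Nat.gcd p 3 = 1 := (Nat.coprime_primes hp.out Nat.prime_three).2 (by omega)
  rw [h9, pow_one] at h8
  exact ha1 h8

theorem order_iff {q u e : ℕ} (hq : 0 < q) (h : orderOf (q : ZMod u) = e) (j : ℕ) :
    u ∣ q ^ j - 1 ↔ e ∣ j := by
  rw [← h, orderOf_dvd_iff_pow_eq_one, ← Nat.cast_pow]
  have h1 : 1 ≤ q ^ j := Nat.one_le_pow _ _ hq
  constructor
  · rintro h2
    have h3 : ((q ^ j - 1 : ℕ) : ZMod u) = 0 := (ZMod.natCast_eq_zero_iff _ _).2 h2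
    rw [Nat.cast_sub h1, Nat.cast_one] at h3
    exact sub_eq_zero.1 h3
  · intro h2
    rw [← ZMod.natCast_eq_zero_iff, Nat.cast_sub h1, h2, Nat.cast_one, sub_self]

/-- **The row `PSL_m(q)`, cross characteristic.** -/
theorem row_psl (hm : 2 ≤ m) (hpF : ¬ p ∣ Fintype.card F)
    (h : Hyp p n (Matrix.ProjectiveSpecialLinearGroup (Fin m) F)) : False := by
  have h5 := h.five
  have hq : 1 < Fintype.card F := Fintype.one_lt_card
  have hfin : Finite (Matrix.ProjectiveSpecialLinearGroup (Fin m) F) := inferInstance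
  obtain ⟨P⟩ : Nonempty (Sylow p (Matrix.ProjectiveSpecialLinearGroup (Fin m) F)) := inferInstance
  set d := orderOf ((Fintype.card F : ℕ) : ZMod p) with hd
  have hiff := order_iff (u := p) (by omega : 0 < Fintype.card F) hd.symm
  have hd0 : 0 < d := by
    have h1 : ((Fintype.card F : ℕ) : ZMod p) ≠ 0 := by
      rwa [Ne, ZMod.natCast_eq_zero_iff]
    have h2 := ZMod.pow_card_sub_one_eq_one h1
    exact Nat.pos_of_dvd_of_pos (orderOf_dvd_of_pow_eq_one h2) (by omega)
  rcases Nat.lt_or_ge 1 d with hd1 | hd1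
  · -- `d ≥ 2`
    have hq1 : ¬ p ∣ Fintype.card F - 1 := by
      intro h1
      have h2 := (hiff 1).1 (by rwa [pow_one])
      have := Nat.le_of_dvd one_pos h2
      omega
    rcases Nat.lt_or_ge m (2 * d) with hmd | hmd
    · exact h.not_cyclic P (H124.LinCyc.isCyclic_sylow_of_gl (ι := Fin m) (by omega) hd0 hiff
        (by rw [Fintype.card_fin]; exact hmd)
        (Matrix.SpecialLinearGroup.toGL : Matrix.SpecialLinearGroup (Fin m) F →* GL (Fin m) F)
        (fun a b hab => Subtype.ext (congrArg Units.val hab)) pr pr_surjective P)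
    · obtain ⟨A, hA, fA⟩ := exists_free hd0 hiff
      have dA : A.det = 1 := by
        have h1 : A.det ^ p = 1 := by rw [← det_pow, hA, det_one]
        have h0 : A.det ≠ 0 := by
          intro h0
          rw [h0, zero_pow hp.out.ne_zero] at h1
          exact zero_ne_one h1
        have h2 : A.det ^ Nat.gcd p (Fintype.card F - 1) = 1 :=
          pow_gcd_eq_one.2 ⟨h1, FiniteField.pow_card_sub_one_eq_one _ h0⟩
        rwa [(Nat.Prime.coprime_iff_not_dvd hp.out).2 hq1, pow_one] at h2
      refine false_of_two h (fun h1 => hq1 h1.2) (by omega) (ι := Fin d) (κ := Fin d ⊕ Fin d) (by rwa [Fintype.card_fin])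
        (by rw [Fintype.card_sum, Fintype.card_fin]; omega) (by rw [Fintype.card_sum, Fintype.card_fin]; omega)
        A (fromBlocks A 0 0 A) hA ?_ dA ?_ fA ?_
      · rw [fromBlocks_diagonal_pow, hA, fromBlocks_one]
      · rw [det_fromBlocks_zero₂₁, dA, mul_one]
      · rw [fxN_fromBlocks, fA]
  · -- `d = 1`
    have hd2 : d = 1 := by omega
    have hq1 : p ∣ Fintype.card F - 1 := by
      have := (hiff 1).2 (by rw [hd2])
      rwa [pow_one] at this
    obtain ⟨u, hu⟩ : ∃ u : Fˣ, orderOf u = p := by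
      apply exists_prime_orderOf_dvd_card' p
      rw [Nat.card_units, Nat.card_eq_fintype_card]
      exact hq1
    set a : F := (u : F) with ha
    have hap : a ^ p = 1 := by
      rw [ha, ← Units.val_pow_eq_pow_val, ← hu, pow_orderOf_eq_one, Units.val_one]
    have ha1 : a ≠ 1 := by
      intro h1
      have h2 : u = 1 := Units.ext h1
      rw [h2, orderOf_one] at hu
      exact hp.out.one_lt.ne hu
    have ha0 : a ≠ 0 := u.ne_zero
    rcases Nat.lt_or_ge m 3 with hm3 | hm3
    · have hm2 : m = 2 := by omega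
      subst hm2
      refine h.not_cyclic P ?_
      by_cases hodd : Odd (Fintype.card F)
      · exact Lib.PSL2Mult.isCyclic_sylow_psl hodd (by omega) hpF P
      · obtain ⟨r, hr⟩ := CharP.exists F
        have hrp := CharP.char_is_prime F r
        obtain ⟨f, -, hf⟩ := FiniteField.card F r
        have h2 : 2 ∣ r ^ (f : ℕ) := by
          rw [← hf]
          exact even_iff_two_dvd.1 (Nat.not_odd_iff_even.1 hodd)
        have h3 : 2 = r := (Nat.prime_dvd_prime_iff_eq Nat.prime_two hrp).1 (Nat.prime_two.dvd_of_dvd_pow h2)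
        subst h3
        exact StdL2.Cover.isCyclic_sylow_even (a := (f : ℕ)) f.pos hf (by omega) P
    · by_cases hpm : p ∣ m
      · exact false_of_gcd h (by omega) hpm hap ha1
      · have ha2 : a⁻¹ ^ 2 ≠ 1 := by
          intro h1
          apply ha1
          have h2 : a ^ 2 = 1 := by
            rw [inv_pow, inv_eq_one] at h1
            exact h1
          have h3 : a ^ Nat.gcd p 2 = 1 := pow_gcd_eq_one.2 ⟨hap, h2⟩
          rwa [(Nat.coprime_primes hp.out Nat.prime_two).2 (by omega), pow_one] at h3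
        have hai : a⁻¹ ≠ 1 := by rwa [Ne, inv_eq_one]
        refine false_of_two h (fun h1 => hpm h1.1) (by omega) (ι := Fin 2) (κ := Fin 3) (by simp) (by simp)
          (by simpa using hm3) (diagonal ![a, a⁻¹]) (diagonal ![a, a, a⁻¹ ^ 2]) ?_ ?_ ?_ ?_ ?_ ?_
        · rw [diagonal_pow]
          have h1 : (![a, a⁻¹] : Fin 2 → F) ^ p = fun _ => 1 := by
            funext i
            fin_cases i
            · exact hap
            · show a⁻¹ ^ p = 1
              rw [inv_pow, hap, inv_one]
          rw [h1, diagonal_one]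
        · rw [diagonal_pow]
          have h1 : (![a, a, a⁻¹ ^ 2] : Fin 3 → F) ^ p = fun _ => 1 := by
            funext i
            fin_cases i
            · exact hap
            · exact hap
            · show (a⁻¹ ^ 2) ^ p = 1
              rw [← pow_mul, mul_comm, pow_mul, inv_pow, hap, inv_one, one_pow]
          rw [h1, diagonal_one]
        · rw [det_diagonal, Fin.prod_univ_two]
          exact mul_inv_cancel₀ ha0
        · rw [det_diagonal, Fin.prod_univ_three]
          show a * a * a⁻¹ ^ 2 = 1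
          field_simp
        · apply fxN_diagonal
          intro i
          fin_cases i
          · exact ha1
          · exact hai
        · apply fxN_diagonal
          intro i
          fin_cases i
          · exact ha1
          · exact ha1
          · exact ha2

end Cfsg.Agent.H491.One
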